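import Cfsg.Agent.H620.RIM.Div
import Cfsg.Agent.H916.RIM.Cnt
import Cfsg.Agent.H35.RIM.BRElt
import Cfsg.Agent.S0135

/-!
# S4816: `p = 3`, elements with centralizer `3 × A₄` (helper620)

* `FourD V d` : `V` of order 4, `d` of order 3 normalizes `V` and does not centralize it; `FourD.grp` the group `V ⟨d⟩`;
* `nb_three_of_four` : `x` of order 3, `|C(x)| = 36`, `V, d ≤ C(x)`, 10 classes with `MGood 2`: `NB 3 2 S`.
-/

set_option autoImplicit false
set_option linter.unusedSectionVars false

namespace Cfsg.Agent.H620.RIM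

open Cfsg Subgroup
open Cfsg.Agent.H622.Over Cfsg.Agent.H849.RIM Cfsg.Agent.H665.RIM
open scoped commutatorElement

universe u

/-- `V` of order 4, `d` of order 3 acting nontrivially. -/
structure FourD {S : Type u} [Group S] (V : Subgroup S) (d : S) : Prop where
  card : Nat.card V = 4
  cube : d ^ 3 = 1
  norm : ∀ v ∈ V, d * v * d⁻¹ ∈ V
  ne : ∃ v ∈ V, d * v ≠ v * d

namespace FourD

variable {S : Type u} [Group S] {V : Subgroup S} {d : S}

theorem norm_pow (h : FourD V d) (i : ℕ) : ∀ v ∈ V, d ^ i * v * (d ^ i)⁻¹ ∈ V := by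
  induction i with
  | zero => intro v hv; simpa using hv
  | succ i ih =>
    intro v hv
    have h1 := h.norm _ (ih v hv)
    have h2 : d ^ (i + 1) * v * (d ^ (i + 1))⁻¹ = d * (d ^ i * v * (d ^ i)⁻¹) * d⁻¹ := by
      rw [pow_succ']; group
    rw [h2]; exact h1

theorem inv_eq (h : FourD V d) (i : ℕ) : (d ^ i)⁻¹ = d ^ (2 * i) := by
  rw [inv_eq_iff_mul_eq_one, ← pow_add, show i + 2 * i = 3 * i by ring, pow_mul, h.cube, one_pow]

/-- The group `V ⟨d⟩`. -/
def grp (h : FourD V d) : Subgroup S where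
  carrier := {g | ∃ v ∈ V, ∃ i : ℕ, g = v * d ^ i}
  one_mem' := ⟨1, V.one_mem, 0, by simp⟩
  mul_mem' := by
    rintro _ _ ⟨v, hv, i, rfl⟩ ⟨w, hw, j, rfl⟩
    refine ⟨v * (d ^ i * w * (d ^ i)⁻¹), V.mul_mem hv (h.norm_pow i w hw), i + j, ?_⟩
    rw [pow_add]; group
  inv_mem' := by
    rintro _ ⟨v, hv, i, rfl⟩
    refine ⟨(d ^ i)⁻¹ * v⁻¹ * d ^ i, ?_, 2 * i, ?_⟩
    · rw [h.inv_eq i]
      have h1 := h.norm_pow (2 * i) v⁻¹ (V.inv_mem hv)
      have h2 : (d ^ (2 * i))⁻¹ = d ^ i := by rw [← h.inv_eq i, inv_inv]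
      rwa [h2] at h1
    · rw [← h.inv_eq i]; group

theorem mem_grp (h : FourD V d) {g : S} : g ∈ h.grp ↔ ∃ v ∈ V, ∃ i : ℕ, g = v * d ^ i := Iff.rfl

theorem le_grp (h : FourD V d) : V ≤ h.grp := fun v hv => ⟨v, hv, 0, by simp⟩

theorem d_mem (h : FourD V d) : d ∈ h.grp := ⟨1, V.one_mem, 1, by simp⟩

theorem comm (h : FourD V d) : ∀ v ∈ V, ∀ w ∈ V, v * w = w * v := by
  have : Fact (Nat.Prime 2) := ⟨Nat.prime_two⟩
  have h1 := IsPGroup.isMulCommutative_of_card_eq_prime_sq (p := 2) (G := V) (by rw [h.card]; norm_num)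
  intro v hv w hw
  exact congrArg Subtype.val (h1.is_comm.comm ⟨v, hv⟩ ⟨w, hw⟩)

theorem d_ne (h : FourD V d) : d ≠ 1 := by
  rintro rfl
  obtain ⟨v, -, hv⟩ := h.ne
  exact hv (by simp)

theorem orderOf_d (h : FourD V d) : orderOf d = 3 := by
  have : Fact (Nat.Prime 3) := ⟨Nat.prime_three⟩
  exact orderOf_eq_prime h.cube h.d_ne

/-- powers of `d` in `V` are trivial -/
theorem pow_mem (h : FourD V d) {i : ℕ} (hi : d ^ i ∈ V) : d ^ i = 1 := by
  have h1 : (d ^ i) ^ 4 = 1 := by
    have := pow_card_eq_one' (G := V) (x := ⟨d ^ i, hi⟩)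
    rw [h.card] at this
    exact congrArg Subtype.val this
  have h2 : (d ^ i) ^ 3 = 1 := by rw [← pow_mul, mul_comm, pow_mul, h.cube, one_pow]
  rw [pow_succ, h2, one_mul] at h1
  exact h1

/-- `d` has no fixed points -/
theorem eq_one (h : FourD V d) {v : S} (hv : v ∈ V) (hc : d * v = v * d) : v = 1 := by
  classical
  by_contra hne
  obtain ⟨a, ha, hda⟩ := h.ne
  have hb := h.norm a ha
  have hc' := h.norm _ hb
  have hd1 : d * a * d⁻¹ ≠ a := fun h1 => hda (by rwa [mul_inv_eq_iff_eq_mul] at h1)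
  have hconj : ∀ u w : S, d * u * d⁻¹ = d * w * d⁻¹ → u = w := fun u w h1 => by
    have := mul_right_cancel h1
    exact mul_left_cancel this
  have hfix : ∀ u, d * u * d⁻¹ = u → d * u = u * d := fun u h1 => by rwa [mul_inv_eq_iff_eq_mul] at h1
  have hvf : d * v * d⁻¹ = v := by rw [hc, mul_inv_cancel_right]
  -- `1, v, a, d a d⁻¹, d² a d⁻²` are distinct
  have hcube : d * (d * (d * a * d⁻¹) * d⁻¹) * d⁻¹ = a := by
    have h1 : d * (d * (d * a * d⁻¹) * d⁻¹) * d⁻¹ = d ^ 3 * a * (d ^ 3)⁻¹ := by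
      simp only [pow_succ, pow_zero, one_mul, mul_inv_rev, mul_assoc]
    rw [h1, h.cube]; simp
  have h1a : a ≠ 1 := by rintro rfl; exact hda (by simp)
  have hva : v ≠ a := by rintro rfl; exact hda hc
  have hvb : v ≠ d * a * d⁻¹ := by
    intro h1
    apply hva
    apply hconj
    rw [hvf, h1]
  have hvc : v ≠ d * (d * a * d⁻¹) * d⁻¹ := by
    intro h1
    apply hvb
    apply hconj
    rw [hvf, h1]
  have hb1 : d * a * d⁻¹ ≠ 1 := by
    intro h1
    apply h1a
    apply hconj
    rw [h1]; simp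
  have hc1 : d * (d * a * d⁻¹) * d⁻¹ ≠ 1 := by
    intro h1
    apply hb1
    apply hconj
    rw [h1]; simp
  have hbc : d * (d * a * d⁻¹) * d⁻¹ ≠ d * a * d⁻¹ := fun h1 => hd1 (hconj _ _ h1)
  have hca : d * (d * a * d⁻¹) * d⁻¹ ≠ a := by
    intro h1
    rw [h1] at hcube
    exact hd1 hcube
  have hfin : Finite V := Nat.finite_of_card_ne_zero (by rw [h.card]; norm_num)
  have := Fintype.ofFinite V
  have h5 : ({⟨1, V.one_mem⟩, ⟨v, hv⟩, ⟨a, ha⟩, ⟨_, hb⟩, ⟨_, hc'⟩} : Finset V).card = 5 := by
    rw [Finset.card_insert_of_notMem, Finset.card_insert_of_notMem, Finset.card_insert_of_notMem,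
      Finset.card_insert_of_notMem, Finset.card_singleton]
    · simpa using hbc.symm
    · simp only [Finset.mem_insert, Finset.mem_singleton, Subtype.mk.injEq, not_or]
      exact ⟨hd1.symm, hca.symm⟩
    · simp only [Finset.mem_insert, Finset.mem_singleton, Subtype.mk.injEq, not_or]
      exact ⟨hva, hvb, hvc⟩
    · simp only [Finset.mem_insert, Finset.mem_singleton, Subtype.mk.injEq, not_or]
      exact ⟨fun h1 => hne h1.symm, h1a.symm, hb1.symm, hc1.symm⟩
  have h6 := Finset.card_le_univ ({⟨1, V.one_mem⟩, ⟨v, hv⟩, ⟨a, ha⟩, ⟨_, hb⟩, ⟨_, hc'⟩} : Finset V)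
  rw [h5, ← Nat.card_eq_fintype_card, h.card] at h6
  omega

/-- `d ^ i` commuting with a nontrivial element of `V` is trivial -/
theorem pow_eq_one (h : FourD V d) {v : S} (hv : v ∈ V) (hv1 : v ≠ 1) {i : ℕ} (hc : d ^ i * v = v * d ^ i) :
    d ^ i = 1 := by
  have h3 := h.orderOf_d
  have hi : i % 3 = 0 ∨ i % 3 = 1 ∨ i % 3 = 2 := by omega
  have hmod : d ^ i = d ^ (i % 3) := by rw [← h3, pow_mod_orderOf]
  rcases hi with h0 | h0 | h0
  · rw [hmod, h0, pow_zero]
  · exfalso
    rw [hmod, h0, pow_one] at hc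
    exact hv1 (h.eq_one hv hc)
  · exfalso
    rw [hmod, h0] at hc
    apply hv1
    apply h.eq_one hv
    have h4 : Commute (d ^ 2) v := hc
    have h5 : (d ^ 2) ^ 2 = d := by
      rw [← pow_mul, show 2 * 2 = 3 + 1 by norm_num, pow_add, h.cube, one_mul, pow_one]
    have h6 := h4.pow_left 2
    rw [h5] at h6
    exact h6

/-- The order of `V ⟨d⟩` is 12. -/
theorem card_grp [Finite S] (h : FourD V d) : Nat.card h.grp = 12 := by
  let f : V × Fin 3 → h.grp := fun x => ⟨x.1 * d ^ (x.2 : ℕ), ⟨x.1, x.1.2, x.2, rfl⟩⟩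
  have hf : Function.Bijective f := by
    constructor
    · rintro ⟨v, i⟩ ⟨w, j⟩ hvw
      have h1 : (v : S) * d ^ (i : ℕ) = w * d ^ (j : ℕ) := congrArg Subtype.val hvw
      have h2 : d ^ ((i : ℕ) + 2 * j) = (v : S)⁻¹ * w := by
        rw [pow_add, ← h.inv_eq, mul_inv_eq_iff_eq_mul, mul_assoc, ← h1, inv_mul_cancel_left]
      have h3 : d ^ ((i : ℕ) + 2 * j) = 1 := h.pow_mem (by rw [h2]; exact V.mul_mem (V.inv_mem v.2) w.2)
      have h4 : v = w := by
        rw [h3, eq_comm, inv_mul_eq_one] at h2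
        exact Subtype.ext h2
      have h5 := orderOf_dvd_of_pow_eq_one h3
      rw [h.orderOf_d] at h5
      refine Prod.ext h4 (Fin.ext ?_)
      show (i : ℕ) = j
      have := i.2
      have := j.2
      omega
    · rintro ⟨_, v, hv, i, rfl⟩
      refine ⟨⟨⟨v, hv⟩, ⟨i % 3, Nat.mod_lt _ (by norm_num)⟩⟩, Subtype.ext ?_⟩
      show v * d ^ (i % 3) = v * d ^ i
      congr 1
      rw [← h.orderOf_d, pow_mod_orderOf]
  rw [← Nat.card_congr (Equiv.ofBijective f hf), Nat.card_prod, h.card, Nat.card_fin]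

/-- The centralizer of `d`. -/
theorem card_cent_d [Finite S] (h : FourD V d) : Nat.card (centralizer ({⟨d, h.d_mem⟩} : Set h.grp)) < 4 := by
  have h1 : centralizer ({⟨d, h.d_mem⟩} : Set h.grp) ≤ zpowers (⟨d, h.d_mem⟩ : h.grp) := by
    rintro ⟨_, v, hv, i, rfl⟩ hg
    rw [mem_centralizer_singleton_iff] at hg
    have h2 : v * d ^ i * d = d * (v * d ^ i) := congrArg Subtype.val hg
    have h3 : v = 1 := by
      apply h.eq_one hv
      rw [mul_assoc, (Commute.refl d).pow_left i |>.eq, ← mul_assoc, ← mul_assoc] at h2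
      exact (mul_right_cancel h2).symm
    subst h3
    rw [mem_zpowers_iff]
    exact ⟨i, Subtype.ext (by simp)⟩
  have h2 := card_le_of_le h1
  rw [Nat.card_zpowers] at h2
  have h3 : orderOf (⟨d, h.d_mem⟩ : h.grp) = 3 := by rw [← h.orderOf_d, ← orderOf_coe]
  omega

/-- `d` and `d⁻¹` are not conjugate in `V ⟨d⟩`. -/
theorem not_conj (h : FourD V d) {g : S} (hg : g ∈ h.grp) {i j : ℕ} (hij : g * d ^ i * g⁻¹ = d ^ j) :
    d ^ i = d ^ j := by
  obtain ⟨v, hv, k, rfl⟩ := hg
  have h1 : v * d ^ i * v⁻¹ = d ^ j := by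
    rw [← hij]
    have h2 : d ^ k * d ^ i * (d ^ k)⁻¹ = d ^ i := by
      rw [← pow_add, add_comm, pow_add, mul_inv_cancel_right]
    calc v * d ^ i * v⁻¹ = v * (d ^ k * d ^ i * (d ^ k)⁻¹) * v⁻¹ := by rw [h2]
      _ = _ := by group
  have h2 : d ^ (j + 2 * i) = v * (d ^ i * v⁻¹ * (d ^ i)⁻¹) := by
    rw [pow_add, ← h.inv_eq, ← h1]; group
  have h3 : d ^ (j + 2 * i) = 1 :=
    h.pow_mem (by rw [h2]; exact V.mul_mem hv (h.norm_pow i _ (V.inv_mem hv)))
  rw [pow_add, ← h.inv_eq, mul_inv_eq_one] at h3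
  exact h3.symm

end FourD

theorem deg_dvd {G : Type*} [Group G] [Finite G] {χ : G → ℂ} (hχ : IsIrrCharacter G χ) :
    charDegree χ ∣ Nat.card G := by
  obtain ⟨n, ρ, hρ, rfl⟩ := hχ
  have h2 : charDegree ρ.character = Module.finrank ℂ (Fin n → ℂ) := by
    rw [charDegree, Representation.char_one]
    simp
  rw [h2]
  exact Cfsg.Agent.S0135.result ρ

section cover

variable {S : Type u} [Group S] {E : Type u} [Group E] [Finite E] {π : E →* S}

/-- The restriction of `π` to the preimage of `L`. -/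
def res (π : E →* S) (L : Subgroup S) : ↥(L.comap π) →* L where
  toFun g := ⟨π g, g.2⟩
  map_one' := Subtype.ext (map_one π)
  map_mul' _ _ := Subtype.ext (map_mul π _ _)

theorem res_surj (hπ : Function.Surjective π) (L : Subgroup S) : Function.Surjective (res π L) := by
  rintro ⟨g, hg⟩
  obtain ⟨x, rfl⟩ := hπ g
  exact ⟨⟨x, hg⟩, rfl⟩

theorem mem_res_ker {L : Subgroup S} {g : ↥(L.comap π)} : g ∈ (res π L).ker ↔ (g : E) ∈ π.ker := by
  rw [MonoidHom.mem_ker, MonoidHom.mem_ker]
  exact ⟨fun h => congrArg Subtype.val h, fun h => Subtype.ext h⟩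

theorem res_ker_le (hker : π.ker ≤ center E) (L : Subgroup S) : (res π L).ker ≤ center ↥(L.comap π) := by
  intro g hg
  rw [mem_center_iff]
  intro x
  exact Subtype.ext (mem_center_iff.1 (hker (mem_res_ker.1 hg)) x)

/-- The identification of the kernels. -/
def kerHom (π : E →* S) (L : Subgroup S) : (res π L).ker →* π.ker where
  toFun z := ⟨(z : ↥(L.comap π)), mem_res_ker.1 z.2⟩
  map_one' := rfl
  map_mul' _ _ := rfl

theorem kerHom_bij (π : E →* S) (L : Subgroup S) : Function.Bijective (kerHom π L) := by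
  constructor
  · intro a b h
    exact Subtype.ext (Subtype.ext (congrArg (fun z : π.ker => (z : E)) h))
  · rintro ⟨z, hz⟩
    have hzL : z ∈ L.comap π := by
      rw [mem_comap, MonoidHom.mem_ker.1 hz]
      exact L.one_mem
    exact ⟨⟨⟨z, hzL⟩, mem_res_ker.2 hz⟩, rfl⟩

/-- A character of degree divisible by `p` of the preimage of `L`: there are `n` good elements, and `w ∈ L` of `p`-power
order with `|C_L(w)| < n`. -/
theorem exists_theta {p : ℕ} (hp : p.Prime) (hπ : Function.Surjective π) (hker : π.ker ≤ center E)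
    (hpm : ¬ p ∣ Nat.card π.ker) (l : π.ker →* ℂˣ) {L : Subgroup S} {w : ↥(L.comap π)} {k n : ℕ} (hw : w ^ p ^ k = 1)
    (hgl : H916.RIM.GoodList (res π L) n)
    (hlt : Nat.card (centralizer ({res π L w} : Set L)) < n) :
    ∃ θ : ↥(L.comap π) → ℂ, IsIrrCharacter ↥(L.comap π) θ ∧
      (∀ (z : E) (hz : z ∈ π.ker) (hz' : z ∈ L.comap π), θ ⟨z, hz'⟩ = θ 1 * l ⟨z, hz⟩) ∧ p ∣ charDegree θ := by
  have hpf : Fact p.Prime := ⟨hp⟩
  have hkc : Nat.card (res π L).ker = Nat.card π.ker := Nat.card_congr (Equiv.ofBijective _ (kerHom_bij π L))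
  have hpm' : ¬ p ∣ Nat.card (res π L).ker := by rwa [hkc]
  have hco : (orderOf w).Coprime (Nat.card (res π L).ker) :=
    (Nat.Coprime.pow_left k ((hp.coprime_iff_not_dvd).2 hpm')).coprime_dvd_left (orderOf_dvd_of_pow_eq_one hw)
  let l' : (res π L).ker →* ℂˣ := l.comp (kerHom π L)
  have hn := H916.RIM.card_ge_of_list (res_ker_le hker L) hgl l'
  obtain ⟨χ, hχ, hd⟩ := exists_dvd_over_d (res_ker_le hker L) hpm' l' hw (a := 1) (b := 1) (Commute.one_right w)
    (Commute.one_right w) (z := 1) (by rw [commutatorElement_self]; rfl) (by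
      rw [map_one, orderOf_one, one_pow, one_mul, card_centralizer_lift (res π L) (res_surj hπ L) (res_ker_le hker L) hco,
        mul_comm]
      exact Nat.mul_lt_mul_of_pos_left (lt_of_lt_of_le hlt hn) Nat.card_pos)
  refine ⟨χ, χ.2, fun z hz hz' => ?_, hd⟩
  have h1 := hχ 1 ⟨⟨z, hz'⟩, mem_res_ker.2 hz⟩
  rw [one_mul] at h1
  exact h1

end cover

/-- **`p = 3`, `C_S(x) = 3 × A₄`.** -/
theorem nb_three_of_four {S : Type u} [Group S] [Finite S] {x : S} (hx : orderOf x = 3)
    (hcard : Nat.card (centralizer ({x} : Set S)) = 36) {V : Subgroup S} {d : S} (h : FourD V d)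
    (hVx : ∀ v ∈ V, v * x = x * v) (hdx : d * x = x * d) (F : Finset (ConjClasses S))
    (hF : ∀ C ∈ F, ∃ g : S, ConjClasses.mk g = C ∧ MGood 2 g) (hlt : 10 ≤ F.card) : NB 3 2 S := by
  intro E _ _ π hπ hker hperf hm l hl
  have h3 : Fact (Nat.Prime 3) := ⟨Nat.prime_three⟩
  have hpm : ¬ 3 ∣ Nat.card π.ker := by rw [hm]; norm_num
  -- the centralizer of `x`
  have hLx : h.grp ≤ centralizer ({x} : Set S) := by
    rintro _ ⟨v, hv, i, rfl⟩
    rw [mem_centralizer_singleton_iff]
    have h1 : Commute d x := hdx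
    rw [mul_assoc, (h1.pow_left i).eq, ← mul_assoc, hVx v hv, mul_assoc]
  -- `⟨x⟩ ∩ L = 1`
  have hcap : zpowers x ⊓ h.grp = ⊥ := by
    rw [eq_bot_iff]
    intro g hg
    obtain ⟨hg1, v, hv, i, rfl⟩ := mem_inf.1 hg
    -- central in `L`: commutes with `V`
    obtain ⟨a, ha, hda⟩ := h.ne
    obtain ⟨j, hj⟩ := mem_zpowers_iff.1 hg1
    have hxa : Commute x a := (hVx a ha).symm
    have hca : Commute (v * d ^ i) a := by rw [← hj]; exact hxa.zpow_left j
    have hxd : Commute x d := hdx.symm
    have hcd : Commute (v * d ^ i) d := by rw [← hj]; exact hxd.zpow_left j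
    have ha1 : a ≠ 1 := by rintro rfl; exact hda (by simp)
    have h1 : Commute (d ^ i) a := by
      have h2 : Commute v a := h.comm v hv a ha
      have h3 : d ^ i = v⁻¹ * (v * d ^ i) := by group
      rw [h3]
      exact h2.inv_left.mul_left hca
    have h2 := h.pow_eq_one ha ha1 h1.eq
    rw [h2, mul_one] at hcd ⊢
    rw [h.eq_one hv hcd.eq.symm]
    exact Subgroup.one_mem _
  have hC : centralizer ({x} : Set S) = zpowers x ⊔ h.grp := by
    symm
    refine eq_of_le_of_card_ge (sup_le ?_ hLx) ?_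
    · rw [zpowers_le, mem_centralizer_singleton_iff]
    · rw [hcard]
      have h1 : Nat.card (zpowers x) ∣ Nat.card (zpowers x ⊔ h.grp : Subgroup S) := card_dvd_of_le le_sup_left
      have h2 : Nat.card h.grp ∣ Nat.card (zpowers x ⊔ h.grp : Subgroup S) := card_dvd_of_le le_sup_right
      -- the product map
      let f : zpowers x × h.grp → (zpowers x ⊔ h.grp : Subgroup S) := fun y =>
        ⟨y.1 * y.2, mul_mem (mem_sup_left y.1.2) (mem_sup_right y.2.2)⟩
      have hf : Function.Injective f := by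
        rintro ⟨a, b⟩ ⟨a', b'⟩ hab
        have h4 : (a : S) * b = a' * b' := congrArg Subtype.val hab
        have h5 : ((a' : S)⁻¹ * a) = b' * (b : S)⁻¹ := by
          rw [eq_mul_inv_iff_mul_eq, mul_assoc, h4, inv_mul_cancel_left]
        have h6 : ((a' : S)⁻¹ * a) ∈ zpowers x ⊓ h.grp :=
          mem_inf.2 ⟨mul_mem (inv_mem a'.2) a.2, by rw [h5]; exact mul_mem b'.2 (inv_mem b.2)⟩
        rw [hcap, mem_bot] at h6
        have h7 : a' = a := Subtype.ext (inv_mul_eq_one.1 h6)
        rw [h6, eq_comm, mul_inv_eq_one] at h5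
        exact Prod.ext h7.symm (Subtype.ext h5.symm)
      have h4 := Nat.card_le_card_of_injective f hf
      rw [Nat.card_prod, Nat.card_zpowers, hx, h.card_grp] at h4
      omega
  -- lift `x`
  obtain ⟨x0, hx0⟩ := hπ x
  obtain ⟨w, hw, hw3⟩ : ∃ w : E, π w = x ∧ w ^ 3 = 1 := by
    refine ⟨x0 ^ 4, ?_, ?_⟩
    · rw [map_pow, hx0]
      have h1 : x ^ 3 = 1 := by rw [← hx]; exact pow_orderOf_eq_one x
      rw [pow_succ, h1, one_mul]
    · have h1 : x0 ^ 3 ∈ π.ker := by
        rw [MonoidHom.mem_ker, map_pow, hx0, ← hx]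
        exact pow_orderOf_eq_one x
      have h2 : (x0 ^ 3) ^ 2 = 1 := by
        have := pow_card_eq_one' (G := π.ker) (x := ⟨x0 ^ 3, h1⟩)
        rw [hm] at this
        exact congrArg Subtype.val this
      calc (x0 ^ 4) ^ 3 = ((x0 ^ 3) ^ 2) ^ 2 := by rw [← pow_mul, ← pow_mul, ← pow_mul]
        _ = 1 := by rw [h2, one_pow]
  have hco : (orderOf w).Coprime (Nat.card π.ker) := by
    rw [hm]
    exact Nat.Coprime.coprime_dvd_left (orderOf_dvd_of_pow_eq_one hw3) (by norm_num)
  by_cases hcase : ∃ a ∈ V.comap π, ∃ b ∈ V.comap π, ⁅a, b⁆ ≠ 1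
  · -- the four-group lifts to a nonabelian group
    obtain ⟨a, ha, b, hb, hab⟩ := hcase
    have hz : ⁅a, b⁆ ∈ π.ker := by
      rw [MonoidHom.mem_ker, map_commutatorElement, commutatorElement_eq_one_iff_mul_comm]
      exact h.comm _ ha _ hb
    have hcen : ∀ g ∈ V.comap π, Commute w g := by
      intro g hg
      have h1 : g ∈ centralizer ({w} : Set E) := by
        rw [centralizer_lift π hπ hker hco, mem_comap, mem_centralizer_singleton_iff, hw]
        exact hVx _ hg
      exact (mem_centralizer_singleton_iff.1 h1).symm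
    have ho : orderOf (l ⟨_, hz⟩) = 2 := by
      have : Fact (Nat.Prime 2) := ⟨Nat.prime_two⟩
      refine orderOf_eq_prime ?_ ?_
      · rw [← map_pow, ← hm, pow_card_eq_one', map_one]
      · intro h1
        rw [← map_one l] at h1
        exact hab (congrArg Subtype.val (hl h1))
    refine exists_of_cent_d (n := 1) Nat.prime_three π hπ hker hpm l (by rwa [pow_one]) (hcen a ha) (hcen b hb)
      (z := ⟨_, hz⟩) rfl F ?_ ?_
    · rwa [hm]
    · rw [hw, hcard, ho]
      omega
  · push Not at hcase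
    -- the elements
    obtain ⟨v, hv, hdv⟩ := h.ne
    have hv1 : v ≠ 1 := by rintro rfl; exact hdv (by simp)
    obtain ⟨v', hv'⟩ := hπ v
    obtain ⟨d', hd'⟩ := hπ d
    have hvm : v' ∈ h.grp.comap π := by rw [mem_comap, hv']; exact h.le_grp hv
    have hdm : d' ^ 4 ∈ h.grp.comap π := by rw [mem_comap, map_pow, hd']; exact h.grp.pow_mem h.d_mem 4
    have hd4 : d ^ 4 = d := by rw [pow_succ, h.cube, one_mul]
    have hd3 : (d' ^ 4) ^ 3 = 1 := by
      have h1 : d' ^ 3 ∈ π.ker := by rw [MonoidHom.mem_ker, map_pow, hd', h.cube]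
      have h2 : (d' ^ 3) ^ 2 = 1 := by
        have := pow_card_eq_one' (G := π.ker) (x := ⟨d' ^ 3, h1⟩)
        rw [hm] at this
        exact congrArg Subtype.val this
      calc (d' ^ 4) ^ 3 = ((d' ^ 3) ^ 2) ^ 2 := by rw [← pow_mul, ← pow_mul, ← pow_mul]
        _ = 1 := by rw [h2, one_pow]
    set D : ↥(h.grp.comap π) := ⟨d' ^ 4, hdm⟩ with hD
    have hπD : res π h.grp D = ⟨d, h.d_mem⟩ := Subtype.ext (by show π (d' ^ 4) = d; rw [map_pow, hd', hd4])
    -- elements of order 3 are good
    have good3 : ∀ g : ↥(h.grp.comap π), g ^ 3 = 1 → ∀ y, ⁅g, y⁆ ∈ (res π h.grp).ker → ⁅g, y⁆ = 1 := by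
      intro g hg y hy
      have hkc : Nat.card (res π h.grp).ker = 2 := by
        rw [Nat.card_congr (Equiv.ofBijective _ (kerHom_bij π h.grp)), hm]
      have h2 : ⁅g, y⁆ ^ 2 = 1 := by
        have := pow_card_eq_one' (G := (res π h.grp).ker) (x := ⟨_, hy⟩)
        rw [hkc] at this
        exact congrArg Subtype.val this
      have hc : ∀ t, t * ⁅g, y⁆ = ⁅g, y⁆ * t := fun t => mem_center_iff.1 (res_ker_le hker h.grp hy) t
      have h5 : ⁅g, y⁆ ^ 3 = 1 := by
        have h6 : y * g * y⁻¹ = ⁅g, y⁆⁻¹ * g := by rw [commutatorElement_def]; group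
        have h7 : (y * g * y⁻¹) ^ 3 = 1 := by rw [conj_pow, hg, mul_one, mul_inv_cancel]
        have h8 : Commute ⁅g, y⁆⁻¹ g := Commute.inv_left (show Commute ⁅g, y⁆ g from (hc g).symm)
        rw [h6, h8.mul_pow, hg, mul_one, inv_pow, inv_eq_one] at h7
        exact h7
      rw [pow_succ, h2, one_mul] at h5
      exact h5
    have hgl : H916.RIM.GoodList (res π h.grp) 4 := by
      refine ⟨![1, ⟨v', hvm⟩, D, D ^ 2], ?_, ?_⟩
      · intro i y hy
        fin_cases i
        · exact commutatorElement_one_left y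
        · -- `y` lies in the preimage of `V`
          show ⁅(⟨v', hvm⟩ : ↥(h.grp.comap π)), y⁆ = 1
          have hy' : π ⁅v', (y : E)⁆ = 1 := mem_res_ker.1 hy
          rw [map_commutatorElement, commutatorElement_eq_one_iff_mul_comm, hv'] at hy'
          obtain ⟨u, hu, i, hui⟩ := y.2
          rw [hui] at hy'
          have h1 : Commute (d ^ i) v := by
            have h2 : Commute u v := h.comm u hu v hv
            have h3 : d ^ i = u⁻¹ * (u * d ^ i) := by group
            rw [h3]
            exact h2.inv_left.mul_left (show Commute (u * d ^ i) v from hy'.symm)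
          have h2 := h.pow_eq_one hv hv1 h1.eq
          rw [h2, mul_one] at hui
          exact Subtype.ext (hcase v' (by rw [mem_comap, hv']; exact hv) y (by rw [mem_comap, hui]; exact hu))
        · exact good3 D (Subtype.ext hd3) y hy
        · refine good3 (D ^ 2) ?_ y hy
          rw [← pow_mul, mul_comm, pow_mul, show D ^ 3 = 1 from Subtype.ext hd3, one_pow]
      · -- pairwise not conjugate
        have hπv : res π h.grp ⟨v', hvm⟩ = ⟨v, h.le_grp hv⟩ := Subtype.ext hv'
        have o1 : orderOf (res π h.grp 1) = 1 := by rw [map_one, orderOf_one]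
        have hVo : v ^ 4 = 1 := by
          have := pow_card_eq_one' (G := V) (x := ⟨v, hv⟩)
          rw [h.card] at this
          exact congrArg Subtype.val this
        have key : ∀ a b : h.grp, IsConj a b → ∀ n : ℕ, (a : S) ^ n = 1 → (b : S) ^ n = 1 := by
          intro a b hab n ha
          obtain ⟨c, hc⟩ := isConj_iff.1 hab
          rw [← hc]
          have h1 : ((c * a * c⁻¹ : h.grp) : S) = c * a * (c : S)⁻¹ := rfl
          rw [h1, conj_pow, ha, mul_one, mul_inv_cancel]
        have hd1 := h.d_ne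
        have hd21 : d ^ 2 ≠ 1 := by
          intro h1
          have h2 := orderOf_dvd_of_pow_eq_one h1
          rw [h.orderOf_d] at h2
          revert h2; norm_num
        have hd41 : d ^ 4 ≠ 1 := by rw [hd4]; exact hd1
        have hπD2 : res π h.grp (D ^ 2) = ⟨d ^ 2, h.grp.pow_mem h.d_mem 2⟩ := by
          rw [map_pow, hπD]; rfl
        have hv3 : v ^ 3 ≠ 1 := by
          intro h1
          rw [pow_succ, h1, one_mul] at hVo
          exact hv1 hVo
        intro i j hij
        fin_cases i <;> fin_cases j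
        · rfl
        · exfalso
          change IsConj (res π h.grp 1) (res π h.grp ⟨v', hvm⟩) at hij
          rw [hπv, map_one] at hij
          have := key _ _ hij 1 (by simp)
          exact hv1 (by simpa using this)
        · exfalso
          change IsConj (res π h.grp 1) (res π h.grp D) at hij
          rw [hπD, map_one] at hij
          have := key _ _ hij 1 (by simp)
          exact hd1 (by simpa using this)
        · exfalso
          change IsConj (res π h.grp 1) (res π h.grp (D ^ 2)) at hij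
          rw [hπD2, map_one] at hij
          have := key _ _ hij 1 (by simp)
          exact hd21 (by simpa using this)
        · exfalso
          change IsConj (res π h.grp ⟨v', hvm⟩) (res π h.grp 1) at hij
          rw [hπv, map_one] at hij
          have := key _ _ hij.symm 1 (by simp)
          exact hv1 (by simpa using this)
        · rfl
        · exfalso
          change IsConj (res π h.grp ⟨v', hvm⟩) (res π h.grp D) at hij
          rw [hπv, hπD] at hij
          exact hv3 (key _ _ hij.symm 3 h.cube)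
        · exfalso
          change IsConj (res π h.grp ⟨v', hvm⟩) (res π h.grp (D ^ 2)) at hij
          rw [hπv, hπD2] at hij
          refine hv3 (key _ _ hij.symm 3 ?_)
          show (d ^ 2) ^ 3 = 1
          rw [← pow_mul, mul_comm, pow_mul, h.cube, one_pow]
        · exfalso
          change IsConj (res π h.grp D) (res π h.grp 1) at hij
          rw [hπD, map_one] at hij
          have := key _ _ hij.symm 1 (by simp)
          exact hd1 (by simpa using this)
        · exfalso
          change IsConj (res π h.grp D) (res π h.grp ⟨v', hvm⟩) at hij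
          rw [hπv, hπD] at hij
          exact hv3 (key _ _ hij 3 h.cube)
        · rfl
        · exfalso
          change IsConj (res π h.grp D) (res π h.grp (D ^ 2)) at hij
          rw [hπD, hπD2] at hij
          obtain ⟨c, hc⟩ := isConj_iff.1 hij
          have h1 : (c : S) * d ^ 1 * (c : S)⁻¹ = d ^ 2 := by rw [pow_one]; exact congrArg Subtype.val hc
          have h2 := h.not_conj c.2 h1
          rw [pow_one, pow_two, eq_comm, mul_eq_left] at h2
          exact hd1 h2
        · exfalso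
          change IsConj (res π h.grp (D ^ 2)) (res π h.grp 1) at hij
          rw [hπD2, map_one] at hij
          have := key _ _ hij.symm 1 (by simp)
          exact hd21 (by simpa using this)
        · exfalso
          change IsConj (res π h.grp (D ^ 2)) (res π h.grp ⟨v', hvm⟩) at hij
          rw [hπv, hπD2] at hij
          refine hv3 (key _ _ hij 3 ?_)
          show (d ^ 2) ^ 3 = 1
          rw [← pow_mul, mul_comm, pow_mul, h.cube, one_pow]
        · exfalso
          change IsConj (res π h.grp (D ^ 2)) (res π h.grp D) at hij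
          rw [hπD, hπD2] at hij
          obtain ⟨c, hc⟩ := isConj_iff.1 hij
          have h1 : (c : S) * d ^ 2 * (c : S)⁻¹ = d ^ 1 := by rw [pow_one]; exact congrArg Subtype.val hc
          have h2 := h.not_conj c.2 h1
          rw [pow_one, pow_two, mul_eq_left] at h2
          exact hd1 h2
        · rfl
    obtain ⟨θ, hθ, hθl, hθd⟩ := exists_theta Nat.prime_three hπ hker hpm l (L := h.grp) (w := D) (k := 1) (n := 4)
      (by rw [pow_one]; exact Subtype.ext hd3) hgl (by rw [hπD]; exact h.card_cent_d)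
    -- the degree
    have hd0 : charDegree θ ≠ 0 := by
      intro h0
      obtain ⟨n, hn, hn'⟩ := Cfsg.Agent.Characters.Core.isIrr_apply_one hθ
      unfold charDegree at h0
      rw [hn'] at h0
      simp at h0
      omega
    have hGc : Nat.card ↥(h.grp.comap π) = 24 := by rw [card_comap_surj π hπ, h.card_grp, hm]
    have hfac : (charDegree θ).factorization 3 = (Nat.card h.grp).factorization 3 := by
      have hb : (Nat.card h.grp).factorization 3 = 1 := by
        rw [h.card_grp, show 12 = 2 ^ 2 * 3 by norm_num, Nat.factorization_mul (by norm_num) (by norm_num),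
          Nat.factorization_pow]
        simp [Nat.Prime.factorization Nat.prime_two, Nat.Prime.factorization Nat.prime_three]
      rw [hb]
      refine le_antisymm ?_ ((Nat.prime_three.dvd_iff_one_le_factorization hd0).1 hθd)
      have h1 : charDegree θ ∣ 24 := by rw [← hGc]; exact deg_dvd hθ
      have h3 := (Nat.factorization_le_iff_dvd hd0 (by norm_num)).2 h1 3
      refine h3.trans ?_
      rw [show 24 = 2 ^ 3 * 3 by norm_num, Nat.factorization_mul (by norm_num) (by norm_num), Nat.factorization_pow]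
      simp [Nat.Prime.factorization Nat.prime_two, Nat.Prime.factorization Nat.prime_three]
    have hQ : Nat.card (zpowers x) = 3 := by rw [Nat.card_zpowers, hx]
    have hH : centralizer ({x} : Set S) = centralizer ((zpowers x : Subgroup S) : Set S) := by
      rw [zpowers_eq_closure, centralizer_closure]
    refine H35.RIM.exists_dvd_ext hπ hker hpm l (IsPGroup.of_card (n := 1) (by rw [pow_one, hQ])) ?_ (hH ▸ hC) hcap
      (H35.RIM.not_dvd_of_card hQ) ?_ θ hθ hθl hfac
    · rw [← hH, zpowers_le, mem_centralizer_singleton_iff]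
    · rw [hQ]
      have h1 : 36 ∣ Nat.card S := by rw [← hcard]; exact card_subgroup_dvd_card _
      exact Dvd.dvd.trans (by norm_num) h1

end Cfsg.Agent.H620.RIM
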